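import Cfsg.Agent.H450.HT.TwoCommon

/-!
# HT-E P4d: `e_two_five` (S3577; helper450 for helper662)
-/

set_option autoImplicit false
set_option linter.unusedSectionVars false

open scoped commutatorElement
open Finset

namespace Cfsg.Agent.H450.HT

open Cfsg.Agent.H828.HT Cfsg.Agent.H662.HT Cfsg.Agent.H583.HT

universe u

variable {p : ℕ} [Fact p.Prime] {V : Type u} [AddCommGroup V] [Module (ZMod p) V] [Finite V]

variable {G A F : Subgroup (V ≃ₗ[ZMod p] V)} {K : Type u} [Field K] [Module K V] {χ : A →* Kˣ} {σ : G →* (K ≃+* K)}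

set_option maxRecDepth 100000 in
theorem three_cycle_of : ∀ s t u : Equiv.Perm (Fin 3), s 0 ≠ 0 → t 1 ≠ 1 → u 2 ≠ 2 →
    (s ^ 3 = 1 ∧ s ≠ 1) ∨ (t ^ 3 = 1 ∧ t ≠ 1) ∨ (u ^ 3 = 1 ∧ u ≠ 1) ∨ ((s * t) ^ 3 = 1 ∧ s * t ≠ 1) ∨
    ((s * u) ^ 3 = 1 ∧ s * u ≠ 1) ∨ ((t * u) ^ 3 = 1 ∧ t * u ≠ 1) := by decide +kernel

theorem exists_three_cycle {ρ : G →* Equiv.Perm (Fin 3)} {n : Fin 3 → (V ≃ₗ[ZMod p] V)} (R : Rho G A F ρ n) :
    ∃ g : G, (ρ g) ^ 3 = 1 ∧ ρ g ≠ 1 := by
  obtain ⟨a, ha⟩ := R.fpf 0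
  obtain ⟨b, hb⟩ := R.fpf 1
  obtain ⟨c, hc⟩ := R.fpf 2
  rcases three_cycle_of (ρ a) (ρ b) (ρ c) ha hb hc with h | h | h | h | h | h
  · exact ⟨a, h⟩
  · exact ⟨b, h⟩
  · exact ⟨c, h⟩
  · exact ⟨a * b, by rw [map_mul]; exact h⟩
  · exact ⟨a * c, by rw [map_mul]; exact h⟩
  · exact ⟨b * c, by rw [map_mul]; exact h⟩

/-- `3 |A|` divides `|G|` -/
theorem three_mul_dvd (E : ETwo G A F) : Nat.card A * 3 ∣ Nat.card G := by
  have := finite_gl (p := p) (V := V)
  obtain ⟨ρ, n, R⟩ := exists_rho E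
  obtain ⟨g, hg3, hg1⟩ := exists_three_cycle R
  have h1 : Nat.card A ∣ Nat.card ρ.ker := by
    have hle : A.subgroupOf G ≤ ρ.ker := by
      intro a ha
      rw [MonoidHom.mem_ker]
      exact R.rho_of_mem E (E.AF ha)
    rw [← Nat.card_congr (Subgroup.subgroupOfEquivOfLe (E.AF.trans E.FG)).toEquiv]
    exact Subgroup.card_dvd_of_le hle
  have h2 : 3 ∣ Nat.card ρ.range := by
    have h3 : orderOf (⟨ρ g, g, rfl⟩ : ρ.range) = 3 := by
      have : Fact (Nat.Prime 3) := ⟨Nat.prime_three⟩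
      refine orderOf_eq_prime (Subtype.ext hg3) (fun h => hg1 (congrArg Subtype.val h))
    exact h3.symm.dvd.trans (orderOf_dvd_natCard _)
  have h4 : Nat.card ρ.ker * Nat.card ρ.range = Nat.card G := by
    have h5 := ρ.ker.card_mul_index
    rw [Subgroup.index_ker] at h5
    exact h5
  rw [← h4]
  exact Nat.mul_dvd_mul h1 h2

/-- if `3 ∣ h` then every vector is fixed by an element of order three -/
theorem exists_ord {h r : ℕ} (hr : r.Prime) (hh : Half G h) (hrh : r ∣ h) {v : V} (hv : v ≠ 0) :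
    ∃ y : G, orderOf y = r ∧ (y : V ≃ₗ[ZMod p] V) v = v := by
  have := finite_gl (p := p) (V := V)
  have : Fact r.Prime := ⟨hr⟩
  have h1 : r ∣ Nat.card (MulAction.stabilizer G v) := by rw [hh v hv]; exact hrh
  obtain ⟨y, hy⟩ := exists_prime_orderOf_dvd_card' r h1
  refine ⟨y.1, ?_, y.2⟩
  rw [← hy]
  exact Subgroup.orderOf_coe y

theorem e_two_five [Nontrivial V] (E : ETwo G A F) (hK : KS G A K χ σ) (hp : p = 5) (hV : Nat.card V = 5 ^ 4)
    (hKc : Nat.card K = 5 ^ 2) (hcop : ¬ p ∣ Nat.card G) {h : ℕ} (hh : Half G h) (h2 : 2 ≤ h) : False := by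
  have := finite_gl (p := p) (V := V)
  have hKf := hK.fin
  have hp5 : 5 ≤ p := by omega
  obtain ⟨m, hm, hm0⟩ := exists_m hh (exists_ne (0 : V))
  have hmd : m ∣ Nat.card V - 1 := dvd_card_sub_one hh (by omega) hm
  rw [hV] at hmd
  obtain ⟨v, hv, hfree⟩ := exists_free (B := 25) E hK hp5 (by rw [hV]; norm_num) (by norm_num)
  have hFm : Nat.card F ∣ m := card_normal_dvd_m hh (by omega) hm F E.FG E.nF hv hfree
  rw [E.card] at hFm
  -- `|A| ∣ 24`
  have hu : Nat.card Kˣ = 24 := by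
    rw [Nat.card_units, hKc]
    norm_num
  have hA24 : Nat.card A ∣ 24 := by
    rw [← hu]
    exact Subgroup.card_dvd_of_injective χ hK.inj
  have hA4 : ¬ Nat.card A ∣ 4 := by
    intro h4
    have h5 : (5 : K) = 0 := by
      have := char_of (p := p) (V := V) (K := K)
      rw [hp] at this
      exact_mod_cast this
    have hch : CharP K 5 := by
      obtain ⟨q, hq⟩ := CharP.exists K
      have h6 : q ∣ 5 := (CharP.cast_eq_zero_iff K q 5).1 (by exact_mod_cast h5)
      rcases (Nat.dvd_prime (by norm_num)).1 h6 with h7 | h7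
      · exact absurd h7 (CharP.char_ne_one K q)
      · rw [h7] at hq; exact hq
    have : Fact (Nat.Prime 5) := ⟨by norm_num⟩
    have hexp : ExpChar K 5 := ExpChar.prime (by norm_num)
    have h6 := hK.gen ((frobenius K 5).eqLocusField (RingHom.id K)) (by
      intro a
      change frobenius K 5 (χ a : K) = χ a
      rw [frobenius_def]
      have h7 : a ^ 4 = 1 := by
        obtain ⟨k, hk⟩ := h4
        rw [hk, pow_mul, pow_card_eq_one', one_pow]
      have h8 : (χ a : K) ^ 4 = 1 := by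
        rw [← Units.val_pow_eq_pow_val, ← map_pow, h7, map_one, Units.val_one]
      rw [pow_succ, h8, one_mul])
    obtain ⟨g, hg⟩ := IsCyclic.exists_ofOrder_eq_natCard (α := Kˣ)
    rw [hu] at hg
    have h7 : (g : K) ∈ (frobenius K 5).eqLocusField (RingHom.id K) := by rw [h6]; exact Subfield.mem_top _
    have h8 : (g : K) ^ 5 = g := h7
    have h9 : g ^ 5 = g := Units.ext (by rw [Units.val_pow_eq_pow_val]; exact h8)
    have h10 : g ^ 4 = 1 := by
      rw [pow_succ] at h9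
      exact mul_eq_right.1 h9
    have h11 := orderOf_dvd_of_pow_eq_one h10
    rw [hg] at h11
    exact absurd h11 (by decide)
  -- `3 ∣ |A|`
  have h3A : 3 ∣ Nat.card A := by
    have h6 : Nat.card A ≤ 24 := Nat.le_of_dvd (by norm_num) hA24
    have h7 : 4 * Nat.card A ∣ 5 ^ 4 - 1 := hFm.trans hmd
    generalize Nat.card A = z at *
    interval_cases z <;> revert hA24 hA4 h7 <;> decide
  -- `3 ∣ h`
  have h3h : 3 ∣ h := by
    by_contra hn
    have h6 : 3 * 3 ∣ m * h := by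
      rw [hm]
      exact (Nat.mul_dvd_mul_right h3A 3).trans (three_mul_dvd E)
    have h7 : Nat.Coprime (3 * 3) h := by
      have := (Nat.prime_three.coprime_iff_not_dvd).2 hn
      exact Nat.Coprime.mul_left this this
    have h8 : 3 * 3 ∣ m := h7.dvd_of_dvd_mul_right h6
    have h9 := h8.trans hmd
    revert h9
    decide
  -- covering by elements of order three
  have h6 := cover_le (k := 1) (B := 25) (N := 24) (count_three_lin E hK hp5 hcop) (fun y hy => by
    have := card_three E hK hp5 hcop hy.1 hy.2.1 hy.2.2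
    rw [hV] at this
    exact (Nat.pow_le_pow_iff_left (n := 2) (by norm_num)).1 (this.trans (by norm_num))) (fun v hv => by
    obtain ⟨y, hy, hyv⟩ := exists_ord Nat.prime_three hh h3h hv
    have hs : σ y = 1 := by
      by_contra hne
      obtain ⟨q, hq2, hq3, -⟩ := coset_semi E hK Nat.prime_three (y₁ := y)
        (by rw [← hy]; exact pow_orderOf_eq_one y) hne
      rw [hKc] at hq3
      have hq4 : q < 3 := by
        by_contra hge
        have := Nat.pow_le_pow_left (not_lt.1 hge) 3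
        omega
      interval_cases q
      omega
    have : Nonempty {y : G // (orderOf y = 3 ∧ (∃ v : V, v ≠ 0 ∧ (y : V ≃ₗ[ZMod p] V) v = v) ∧ σ y = 1) ∧
      (y : V ≃ₗ[ZMod p] V) v = v} := ⟨⟨y, ⟨hy, ⟨v, hv, hyv⟩, hs⟩, hyv⟩⟩
    exact Nat.succ_le_of_lt Nat.card_pos)
  rw [hV] at h6
  omega

end Cfsg.Agent.H450.HT
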