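import Cfsg.Agent.H450.HT.TwoFive

/-!
# HT-E P4d: `e_two_thirteen` (S3577; helper450 for helper662)
-/

set_option autoImplicit false
set_option linter.unusedSectionVars false

open scoped commutatorElement
open Finset

namespace Cfsg.Agent.H450.HT

open Cfsg.Agent.H828.HT Cfsg.Agent.H662.HT Cfsg.Agent.H583.HT

universe u

variable {p : ℕ} [Fact p.Prime] {V : Type u} [AddCommGroup V] [Module (ZMod p) V] [Finite V]

variable {G A F : Subgroup (V ≃ₗ[ZMod p] V)} {K : Type u} [Field K] [Module K V] {χ : A →* Kˣ} {σ : G →* (K ≃+* K)}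

theorem transp_of : ∀ t : Equiv.Perm (Fin 3), t * t = 1 → t ≠ 1 → ∃ j : Fin 3, t j ≠ j := by decide

theorem fin3_of : ∀ j k l s : Fin 3, k ≠ j → l ≠ j → l ≠ k → s ≠ l → s = j ∨ s = k := by decide

/-- **an involution with a fixed vector that moves a coset makes `-2` a square** -/
theorem sq_of_transp (E : ETwo G A F) (hK : KS G A K χ σ) (hσ : ∀ g : G, σ g = 1)
    {ρ : G →* Equiv.Perm (Fin 3)} {n : Fin 3 → (V ≃ₗ[ZMod p] V)} (R : Rho G A F ρ n) {y : G} (hy2 : y * y = 1)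
    (hρ : ρ y ≠ 1) {v : V} (hv : v ≠ 0) (hyv : (y : V ≃ₗ[ZMod p] V) v = v)
    (hline : ∀ w : V, (y : V ≃ₗ[ZMod p] V) w = w → ∃ c : K, w = c • v) : ∃ e : K, e * e = -2 := by
  have := finite_gl (p := p) (V := V)
  have hcen : ∀ g : G, ∀ a ∈ A, (g : V ≃ₗ[ZMod p] V) * a = a * g := fun g => (hK.cen g).1 (hσ g)
  have hy2' : (y : V ≃ₗ[ZMod p] V) * (y : V ≃ₗ[ZMod p] V) = 1 := congrArg Subtype.val hy2
  have hyinv : (y : V ≃ₗ[ZMod p] V)⁻¹ = y := inv_eq_of_mul_eq_one_left hy2'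
  obtain ⟨j, hj⟩ := transp_of (ρ y) (by rw [← map_mul, hy2, map_one]) hρ
  obtain ⟨k, hk⟩ : ∃ k, k = ρ y j := ⟨_, rfl⟩
  rw [← hk] at hj
  obtain ⟨m, hm⟩ : ∃ m, m = (y : V ≃ₗ[ZMod p] V) * n j * (y : V ≃ₗ[ZMod p] V)⁻¹ := ⟨_, rfl⟩
  have hkm : (n k)⁻¹ * m ∈ A := by rw [hm]; exact (R.act y j k).1 hk.symm
  have hmF : m ∈ F := by rw [hm]; exact E.nF y y.2 _ (R.memF j)
  have hmA : m ∉ A := by
    intro h
    apply R.notA k
    have h1 : n k = m * ((n k)⁻¹ * m)⁻¹ := by group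
    rw [h1]
    exact mul_mem h (inv_mem hkm)
  have hnm : (n j)⁻¹ * m ∉ A := by
    intro h
    apply hj
    symm
    apply R.inj
    have h1 : (n j)⁻¹ * n k = (n j)⁻¹ * m * ((n k)⁻¹ * m)⁻¹ := by group
    rw [h1]
    exact mul_mem h (inv_mem hkm)
  have hant := anti E (R.memF j) hmF (R.notA j) hmA hnm
  -- `n j * n j = m * m`
  obtain ⟨a, ha⟩ : ∃ a : A, (a : V ≃ₗ[ZMod p] V) = n j * n j := ⟨⟨_, E.sq _ (R.memF j)⟩, rfl⟩
  have hmm : m * m = n j * n j := by
    have h1 := hcen y _ (E.sq _ (R.memF j))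
    calc m * m = (y : V ≃ₗ[ZMod p] V) * (n j * n j) * (y : V ≃ₗ[ZMod p] V)⁻¹ := by rw [hm]; group
      _ = n j * n j := by rw [h1]; group
  -- `y m y⁻¹ = n j`
  have hym : (y : V ≃ₗ[ZMod p] V) * m = n j * y := by
    rw [hm, hyinv]
    calc (y : V ≃ₗ[ZMod p] V) * ((y : V ≃ₗ[ZMod p] V) * n j * y) = ((y : V ≃ₗ[ZMod p] V) * y) * n j * y := by group
      _ = n j * y := by rw [hy2', one_mul]
  have hyn : (y : V ≃ₗ[ZMod p] V) * n j = m * y := by rw [hm]; group
  have ap : ∀ (g g' : V ≃ₗ[ZMod p] V) (w : V), (g * g') w = g (g' w) := fun _ _ _ => rfl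
  have hu : (y : V ≃ₗ[ZMod p] V) (n j v + m v) = n j v + m v := by
    rw [map_add, ← ap, ← ap, hyn, hym, ap, ap, hyv, add_comm]
  obtain ⟨c, hc⟩ := hline _ hu
  have hlin : ∀ x ∈ F, ∀ (k : K) (w : V), x (k • w) = k • x w := fun x hx k w => lin_of_mem E hK hx k w
  have hact : ∀ w : V, n j (n j w) = (χ a : K) • w := by
    intro w
    rw [← ap, ← ha]
    exact hK.act a w
  have hact2 : ∀ w : V, m (m w) = (χ a : K) • w := by
    intro w
    rw [← ap, hmm, ap]
    exact hact w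
  have hcc : c * c = 2 * (χ a : K) := by
    have h1 : n j (n j v + m v) + m (n j v + m v) = (c * c) • v := by
      rw [hc, hlin _ (R.memF j), hlin _ hmF, ← smul_add, hc, smul_smul]
    have h2 : n j (m v) = -(m (n j v)) := congrArg (fun g : V ≃ₗ[ZMod p] V => g v) hant
    have h3 : n j (n j v + m v) + m (n j v + m v) = (2 * (χ a : K)) • v := by
      rw [map_add, map_add, hact, hact2, h2, two_mul, add_smul]
      abel
    have h4 : (c * c - 2 * (χ a : K)) • v = 0 := by rw [sub_smul, ← h1, ← h3, sub_self]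
    exact sub_eq_zero.1 ((smul_eq_zero.1 h4).resolve_right hv)
  -- the third coset
  obtain ⟨d, hd⟩ : ∃ d, d = n j * m := ⟨_, rfl⟩
  have hdF : d ∈ F := by rw [hd]; exact mul_mem (R.memF j) hmF
  have hdA : d ∉ A := by
    intro h
    apply hnm
    have h1 : (n j)⁻¹ * m = (n j * n j)⁻¹ * d := by rw [hd]; group
    rw [h1]
    exact mul_mem (inv_mem (E.sq _ (R.memF j))) h
  obtain ⟨l, hl⟩ := (R.cov d hdF).resolve_left hdA
  have hlj : l ≠ j := by
    rintro rfl
    apply hmA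
    have h1 : m = (n l)⁻¹ * d := by rw [hd]; group
    rw [h1]
    exact hl
  have hlk : l ≠ k := by
    rintro rfl
    apply R.notA j
    have h1 : n j = m * (((n l)⁻¹ * m)⁻¹ * ((n l)⁻¹ * d)) * m⁻¹ := by rw [hd]; group
    rw [h1]
    exact E.nA m (E.FG hmF) _ (mul_mem (inv_mem hkm) hl)
  obtain ⟨g, hg⟩ := R.fpf l
  have hgs := (R.act g l (ρ g l)).1 rfl
  have hgd : (n (ρ g l))⁻¹ * ((g : V ≃ₗ[ZMod p] V) * d * (g : V ≃ₗ[ZMod p] V)⁻¹) ∈ A := by
    have h1 : (n (ρ g l))⁻¹ * ((g : V ≃ₗ[ZMod p] V) * d * (g : V ≃ₗ[ZMod p] V)⁻¹) =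
        (n (ρ g l))⁻¹ * ((g : V ≃ₗ[ZMod p] V) * n l * (g : V ≃ₗ[ZMod p] V)⁻¹) *
        ((g : V ≃ₗ[ZMod p] V) * ((n l)⁻¹ * d) * (g : V ≃ₗ[ZMod p] V)⁻¹) := by group
    rw [h1]
    exact mul_mem hgs (E.nA g g.2 _ hl)
  -- a conjugate of `d` is `x * b` with `x * x = n j * n j`
  obtain ⟨x, hxF, hxx, b, hb⟩ : ∃ x, x ∈ F ∧ x * x = n j * n j ∧ ∃ b : A,
      (g : V ≃ₗ[ZMod p] V) * d * (g : V ≃ₗ[ZMod p] V)⁻¹ = x * b := by
    rcases fin3_of j k l (ρ g l) hj hlj hlk hg with h1 | h1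
    · rw [h1] at hgd
      exact ⟨n j, R.memF j, rfl, ⟨_, hgd⟩, by group⟩
    · rw [h1] at hgd
      refine ⟨m, hmF, hmm, ⟨m⁻¹ * ((g : V ≃ₗ[ZMod p] V) * d * (g : V ≃ₗ[ZMod p] V)⁻¹), ?_⟩, by group⟩
      have h2 : m⁻¹ * ((g : V ≃ₗ[ZMod p] V) * d * (g : V ≃ₗ[ZMod p] V)⁻¹) =
        ((n k)⁻¹ * m)⁻¹ * ((n k)⁻¹ * ((g : V ≃ₗ[ZMod p] V) * d * (g : V ≃ₗ[ZMod p] V)⁻¹)) := by group
      rw [h2]
      exact mul_mem (inv_mem hkm) hgd
  -- squares
  have hdd : ∀ w : V, d (d w) = -(((χ a : K) * (χ a : K)) • w) := by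
    intro w
    have h1 : m (n j (m w)) = -(n j (m (m w))) := by
      have h2 : n j (m (m w)) = -(m (n j (m w))) := congrArg (fun g : V ≃ₗ[ZMod p] V => g (m w)) hant
      rw [h2, neg_neg]
    rw [hd, ap, ap, h1, hact2, hlin _ (R.memF j), map_neg, hlin _ (R.memF j), hact, smul_smul]
  have hsq1 : (g : V ≃ₗ[ZMod p] V) * d * (g : V ≃ₗ[ZMod p] V)⁻¹ * ((g : V ≃ₗ[ZMod p] V) * d *
      (g : V ≃ₗ[ZMod p] V)⁻¹) = d * d := by
    have h1 := hcen g _ (E.sq _ hdF)
    calc _ = (g : V ≃ₗ[ZMod p] V) * (d * d) * (g : V ≃ₗ[ZMod p] V)⁻¹ := by group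
      _ = d * d := by rw [h1]; group
  have hsq2 : x * b * (x * b) = (n j * n j) * (b * b) := by
    have h1 := E.cenA b b.2 x hxF
    calc x * b * (x * b) = x * (b * x) * b := by group
      _ = (x * x) * (b * b) := by rw [h1]; group
      _ = (n j * n j) * (b * b) := by rw [hxx]
  have h5 : (χ a : K) * ((χ b : K) * (χ b : K)) = -((χ a : K) * (χ a : K)) := by
    have h6 : d * d = (n j * n j) * (b * b) := by rw [← hsq1, hb, hsq2]
    have h7 := congrArg (fun g : V ≃ₗ[ZMod p] V => g v) h6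
    simp only [ap] at h7
    rw [hdd, hK.act b, hK.act b, hact, smul_smul, smul_smul, ← neg_smul] at h7
    have h8 : (-((χ a : K) * (χ a : K)) - (χ a : K) * ((χ b : K) * (χ b : K))) • v = 0 := by
      rw [sub_smul, h7, mul_assoc, sub_self]
    exact (sub_eq_zero.1 ((smul_eq_zero.1 h8).resolve_right hv)).symm
  have ha0 : (χ a : K) ≠ 0 := (χ a).ne_zero
  have hb0 : (χ b : K) ≠ 0 := (χ b).ne_zero
  have h9 : (χ a : K) = -((χ b : K) * (χ b : K)) := by
    have : (χ a : K) * ((χ b : K) * (χ b : K) + χ a) = 0 := by rw [mul_add, h5]; ring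
    have := (mul_eq_zero.1 this).resolve_left ha0
    linear_combination this
  refine ⟨c / (χ b : K), ?_⟩
  rw [div_mul_div_comm, hcc, h9]
  field_simp

theorem e_two_thirteen [Nontrivial V] (E : ETwo G A F) (hK : KS G A K χ σ) (hp : p = 13) (hV : Nat.card V = 13 ^ 2)
    (hcop : ¬ p ∣ Nat.card G) {h : ℕ} (hh : Half G h) (h2 : 2 ≤ h) : False := by
  have := finite_gl (p := p) (V := V)
  have hKf := hK.fin
  have hp5 : 5 ≤ p := by omega
  -- `|K| = 13`
  have hKc : Nat.card K = 13 := by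
    have h1 := Module.natCard_eq_pow_finrank (K := K) (V := V)
    rw [hV] at h1
    have h2 : Module.finrank K V ≠ 1 := finrank_ne_one E hK hp5
    have h3 : 1 < Nat.card K := Finite.one_lt_card
    have h4 : Nat.card K ∣ 13 ^ 2 := by
      rw [h1]
      refine dvd_pow_self _ ?_
      intro h5
      rw [h5, pow_zero] at h1
      norm_num at h1
    obtain ⟨k, hk, hk2⟩ := (Nat.dvd_prime_pow (by norm_num)).1 h4
    interval_cases k
    · omega
    · rw [hk2, pow_one]
    · exfalso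
      rw [hk2, ← pow_mul] at h1
      have := Nat.pow_right_injective (le_refl 2 |>.trans (by norm_num : 2 ≤ 13)) h1
      omega
  have hσ : ∀ g : G, σ g = 1 := fun g => ringEquiv_one (by norm_num) hKc (σ g)
  obtain ⟨r, hr, hrh⟩ := Nat.exists_prime_and_dvd (n := h) (by omega)
  have hV' : Nat.card V - 1 = 168 := by rw [hV]; norm_num
  obtain ⟨v₀, hv₀⟩ := exists_ne (0 : V)
  have hr5 : r < 5 := by
    by_contra hge
    obtain ⟨y, hy, hyv⟩ := exists_ord hr hh hrh hv₀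
    exact no_big_lin E hK hr (not_lt.1 hge) hy ⟨v₀, hv₀, hyv⟩ (hσ y)
  have hr23 : r = 2 ∨ r = 3 := by
    have := hr.two_le
    interval_cases r
    · exact Or.inl rfl
    · exact Or.inr rfl
    · exact absurd hr (by norm_num)
  rcases hr23 with rfl | rfl
  · -- involutions
    obtain ⟨ρ, n, R⟩ := exists_rho E
    have hthirteen : ((13 : ℕ) : K) = 0 := by
      have := char_of (p := p) (V := V) (K := K)
      rwa [hp] at this
    have hsq : ¬ ∃ e : K, e * e = -2 := by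
      rintro ⟨e, he⟩
      have he0 : e ≠ 0 := by
        rintro rfl
        rw [mul_zero] at he
        have h2 : (2 : K) = 0 := by linear_combination he
        have h1 : (1 : K) = 0 := by
          have : ((13 : ℕ) : K) - 6 * 2 = 1 := by norm_num
          rw [← this, hthirteen, h2]; ring
        exact one_ne_zero h1
      have h3 : (Units.mk0 e he0) ^ 12 = 1 := by
        have h4 : Nat.card Kˣ = 12 := by rw [Nat.card_units, hKc]
        rw [← h4]
        exact pow_card_eq_one'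
      have h5 : e ^ 12 = 1 := by
        have := congrArg Units.val h3
        rwa [Units.val_pow_eq_pow_val, Units.val_mk0, Units.val_one] at this
      have h6 : e ^ 12 = 64 := by
        calc e ^ 12 = (e * e) ^ 6 := by ring
          _ = 64 := by rw [he]; norm_num
      rw [h6] at h5
      have h7 : (1 : K) = 0 := by
        have h8 : ((13 : ℕ) : K) = 13 := by norm_num
        rw [h8] at hthirteen
        linear_combination (-29 : K) * hthirteen + 6 * h5
      exact one_ne_zero h7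
    have hfx : ∀ y : G, (∃ v : V, v ≠ 0 ∧ (y : V ≃ₗ[ZMod p] V) v = v) → y ≠ 1 →
        Nat.card (fx (y : V ≃ₗ[ZMod p] V)) = 13 := by
      rintro y ⟨v, hv, hyv⟩ hy1
      have h1 := card_eq_pow (p := p) (fx (y : V ≃ₗ[ZMod p] V))
      have h3 : Nat.card (fx (y : V ≃ₗ[ZMod p] V)) ≠ 1 := by
        intro h4
        have := (Nat.card_eq_one_iff_unique.1 h4).1
        have h5 : (⟨v, mem_fx.2 hyv⟩ : fx (y : V ≃ₗ[ZMod p] V)) = 0 := Subsingleton.elim _ _
        exact hv (congrArg Subtype.val h5)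
      have h4 : Nat.card (fx (y : V ≃ₗ[ZMod p] V)) ≠ 13 ^ 2 := by
        intro h5
        apply hy1
        apply Subtype.ext
        have h6 : fx (y : V ≃ₗ[ZMod p] V) = ⊤ := by
          apply SetLike.coe_injective
          apply Set.eq_of_subset_of_ncard_le (Set.subset_univ _)
          have h7 : (fx (y : V ≃ₗ[ZMod p] V) : Set V).ncard = 13 ^ 2 := h5
          rw [h7, ← hV]
          exact le_of_eq (Set.ncard_univ V)
        ext w
        exact mem_fx.1 (h6 ▸ Submodule.mem_top : w ∈ fx (y : V ≃ₗ[ZMod p] V))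
      have h5 : Nat.card (fx (y : V ≃ₗ[ZMod p] V)) ≤ 13 ^ 2 := by
        rw [← hV]
        exact Nat.card_le_card_of_injective (fun x : fx (y : V ≃ₗ[ZMod p] V) => (x : V)) Subtype.val_injective
      obtain ⟨d, hd⟩ : ∃ d, d = Module.finrank (ZMod p) (fx (y : V ≃ₗ[ZMod p] V)) := ⟨_, rfl⟩
      rw [← hd] at h1
      obtain ⟨q, hq⟩ : ∃ q, q = Nat.card (fx (y : V ≃ₗ[ZMod p] V)) := ⟨_, rfl⟩
      rw [← hq] at h1 h3 h4 h5 ⊢
      rw [hp] at h1
      rw [h1] at h3 h4 h5 ⊢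
      have h6 := (Nat.pow_le_pow_iff_right (by norm_num : 1 < 13)).1 h5
      interval_cases d
      · exact absurd rfl h3
      · rfl
      · exact absurd rfl h4
    have key : ∀ y : G, y * y = 1 → y ≠ 1 → (∃ v : V, v ≠ 0 ∧ (y : V ≃ₗ[ZMod p] V) v = v) →
        (y : V ≃ₗ[ZMod p] V) ∈ F := by
      rintro y hy2 hy1 ⟨v, hv, hyv⟩
      by_contra hyF
      apply hsq
      refine sq_of_transp E hK hσ R hy2 (fun h => hyF (R.mem_of_eq E hK h (hσ y))) hv hyv ?_
      intro w hw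
      have h1 := hfx y ⟨v, hv, hyv⟩ hy1
      have h3 : Submodule.span (ZMod p) {v} = fx (y : V ≃ₗ[ZMod p] V) := by
        apply SetLike.coe_injective
        apply Set.eq_of_subset_of_ncard_le
        · rw [SetLike.coe_subset_coe, Submodule.span_singleton_le_iff_mem]
          exact mem_fx.2 hyv
        · have h4 : Nat.card (Submodule.span (ZMod p) {v}) = 13 := by
            rw [card_eq_pow (p := p), finrank_span_singleton hv, hp, pow_one]
          have h5 : (fx (y : V ≃ₗ[ZMod p] V) : Set V).ncard = 13 := h1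
          have h6 : (Submodule.span (ZMod p) {v} : Set V).ncard = 13 := h4
          rw [h5, h6]
        · exact Set.toFinite _
      have h4 : w ∈ Submodule.span (ZMod p) {v} := by rw [h3]; exact mem_fx.2 hw
      obtain ⟨c, hc⟩ := Submodule.mem_span_singleton.1 h4
      refine ⟨((c.val : ℕ) : K), ?_⟩
      rw [← hc, Nat.cast_smul_eq_nsmul, ← Nat.cast_smul_eq_nsmul (ZMod p), ZMod.natCast_zmod_val]
    have h6 := cover_le (k := 1) (B := 13) (N := 6) (count_F E hK) (fun y hy => by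
      have := card_fx_F E hp5 hy.2.1 hy.2.2
      rw [hV] at this
      exact (Nat.pow_le_pow_iff_left (by norm_num)).1 this) (fun v hv => by
      obtain ⟨y, hy, hyv⟩ := exists_ord Nat.prime_two hh hrh hv
      have hy2 : y * y = 1 := by rw [← pow_two, ← hy]; exact pow_orderOf_eq_one y
      have hy1 : y ≠ 1 := by
        rintro rfl
        rw [orderOf_one] at hy
        omega
      have hyF := key y hy2 hy1 ⟨v, hv, hyv⟩
      have hyA : (y : V ≃ₗ[ZMod p] V) ∉ A := fun h =>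
        hv (E.semi _ h (fun h => hy1 (Subtype.ext h)) v hyv)
      have : Nonempty {y : G // (y * y = 1 ∧ (y : V ≃ₗ[ZMod p] V) ∈ F ∧ (y : V ≃ₗ[ZMod p] V) ∉ A) ∧
          (y : V ≃ₗ[ZMod p] V) v = v} := ⟨⟨y, ⟨hy2, hyF, hyA⟩, hyv⟩⟩
      exact Nat.succ_le_of_lt Nat.card_pos)
    rw [hV'] at h6
    omega
  · -- elements of order three
    have h6 := cover_le (k := 2) (B := 13) (N := 24) (count_three_lin E hK hp5 hcop) (fun y hy => by
      have := card_three E hK hp5 hcop hy.1 hy.2.1 hy.2.2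
      rw [hV] at this
      exact (Nat.pow_le_pow_iff_left (n := 2) (by norm_num)).1 this) (fun v hv => by
      obtain ⟨y, hy, hyv⟩ := exists_ord Nat.prime_three hh hrh hv
      have hyv' : ((y⁻¹ : G) : V ≃ₗ[ZMod p] V) v = v := by
        have h1 : ((y⁻¹ : G) : V ≃ₗ[ZMod p] V) ((y : V ≃ₗ[ZMod p] V) v) = v := by
          change ((y⁻¹ * y : G) : V ≃ₗ[ZMod p] V) v = v
          rw [inv_mul_cancel]; rfl
        rwa [hyv] at h1
      have hne : y ≠ y⁻¹ := by
        intro h1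
        have h3 : y ^ 2 = 1 := by
          rw [pow_two]
          nth_rewrite 2 [h1]
          exact mul_inv_cancel y
        have h4 := orderOf_dvd_of_pow_eq_one h3
        rw [hy] at h4
        exact absurd h4 (by decide)
      have h1 : Nat.card (Fin 2) ≤ Nat.card {y : G // (orderOf y = 3 ∧ (∃ v : V, v ≠ 0 ∧
          (y : V ≃ₗ[ZMod p] V) v = v) ∧ σ y = 1) ∧ (y : V ≃ₗ[ZMod p] V) v = v} := by
        refine Nat.card_le_card_of_injective (![⟨y, ⟨hy, ⟨v, hv, hyv⟩, hσ y⟩, hyv⟩,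
          ⟨y⁻¹, ⟨by rw [orderOf_inv]; exact hy, ⟨v, hv, hyv'⟩, hσ _⟩, hyv'⟩]) ?_
        intro a b hab
        fin_cases a <;> fin_cases b
        · rfl
        · exact absurd (congrArg Subtype.val hab) hne
        · exact absurd (congrArg Subtype.val hab).symm hne
        · rfl
      rwa [Nat.card_fin] at h1)
    rw [hV'] at h6
    omega

end Cfsg.Agent.H450.HT
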