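import Cfsg.Agent.H583.HT.Three
import Cfsg.Agent.H828.HT.Basic

/-!
# HT-E P4d: common lemmas for the exceptional cases of `ETwo` (S3577; helper450 for helper662)
-/

set_option autoImplicit false
set_option linter.unusedSectionVars false

open scoped commutatorElement
open Finset

namespace Cfsg.Agent.H450.HT

open Cfsg.Agent.H828.HT Cfsg.Agent.H662.HT Cfsg.Agent.H583.HT

universe u

variable {p : ℕ} [Fact p.Prime] {V : Type u} [AddCommGroup V] [Module (ZMod p) V] [Finite V]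

variable {G A F : Subgroup (V ≃ₗ[ZMod p] V)} {K : Type u} [Field K] [Module K V] {χ : A →* Kˣ} {σ : G →* (K ≃+* K)}

/-- **covering by fixed spaces**: if every non-zero vector is fixed by at least `k` elements of `S`, and the elements
of `S` have at most `B` fixed vectors -/
theorem cover_le {S : G → Prop} {k B N : ℕ} (hN : Nat.card {y : G // S y} ≤ N)
    (hB : ∀ y : G, S y → Nat.card (fx (y : V ≃ₗ[ZMod p] V)) ≤ B)
    (hk : ∀ v : V, v ≠ 0 → k ≤ Nat.card {y : G // S y ∧ (y : V ≃ₗ[ZMod p] V) v = v}) :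
    k * (Nat.card V - 1) ≤ N * (B - 1) := by
  classical
  have := finite_gl (p := p) (V := V)
  let _ : Fintype V := Fintype.ofFinite V
  let _ : Fintype G := Fintype.ofFinite G
  have h1 := Finset.sum_card_bipartiteAbove_eq_sum_card_bipartiteBelow
    (s := (Finset.univ.erase (0 : V))) (t := Finset.univ.filter S)
    (fun (v : V) (y : G) => (y : V ≃ₗ[ZMod p] V) v = v)
  have h2 : k * (Nat.card V - 1) ≤
      ∑ v ∈ Finset.univ.erase (0 : V), ((Finset.univ.filter S).bipartiteAbove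
        (fun (v : V) (y : G) => (y : V ≃ₗ[ZMod p] V) v = v) v).card := by
    have h3 : (Finset.univ.erase (0 : V)).card = Nat.card V - 1 := by
      rw [Finset.card_erase_of_mem (Finset.mem_univ _), Finset.card_univ, Nat.card_eq_fintype_card]
    rw [← h3, mul_comm, ← smul_eq_mul]
    refine Finset.card_nsmul_le_sum _ _ _ ?_
    intro v hv
    refine (hk v (Finset.ne_of_mem_erase hv)).trans (le_of_eq ?_)
    rw [Nat.card_eq_fintype_card, Fintype.card_subtype, Finset.bipartiteAbove, Finset.filter_filter]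
  rw [h1] at h2
  refine h2.trans ?_
  have h4 : ∀ y ∈ Finset.univ.filter S, ((Finset.univ.erase (0 : V)).bipartiteBelow
      (fun (v : V) (y : G) => (y : V ≃ₗ[ZMod p] V) v = v) y).card ≤ B - 1 := by
    intro y hy
    have h5 := hB y (Finset.mem_filter.1 hy).2
    have h6 : ((Finset.univ.erase (0 : V)).bipartiteBelow
      (fun (v : V) (y : G) => (y : V ≃ₗ[ZMod p] V) v = v) y) =
      (Finset.univ.filter (fun v : V => (y : V ≃ₗ[ZMod p] V) v = v)).erase 0 := by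
      ext v
      simp only [Finset.mem_bipartiteBelow, Finset.mem_erase, Finset.mem_univ, and_true, Finset.mem_filter, true_and]
    rw [h6, Finset.card_erase_of_mem (by simp)]
    have h7 : (Finset.univ.filter (fun v : V => (y : V ≃ₗ[ZMod p] V) v = v)).card =
        Nat.card (fx (y : V ≃ₗ[ZMod p] V)) := by
      rw [Nat.card_eq_fintype_card, ← Fintype.card_subtype]
      exact Fintype.card_congr (Equiv.subtypeEquivRight (fun v => mem_fx.symm))
    rw [h7]
    omega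
  refine (Finset.sum_le_card_nsmul _ _ _ h4).trans ?_
  rw [smul_eq_mul]
  refine Nat.mul_le_mul_right _ ?_
  rw [Nat.card_eq_fintype_card, Fintype.card_subtype] at hN
  exact hN

theorem two_ne (hp : 5 ≤ p) {v : V} (h : v = -v) : v = 0 := by
  have h1 : (2 : ZMod p) • v = 0 := by
    rw [two_smul]
    nth_rewrite 1 [h]
    exact neg_add_cancel v
  rcases smul_eq_zero.1 h1 with h2 | h2
  · exfalso
    have h3 : ((2 : ℕ) : ZMod p) = 0 := by exact_mod_cast h2
    rw [ZMod.natCast_eq_zero_iff] at h3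
    have := Nat.le_of_dvd (by norm_num) h3
    omega
  · exact h2

/-- an element of `F` outside `A` has few fixed vectors -/
theorem card_fx_F (E : ETwo G A F) (hp : 5 ≤ p) {x : V ≃ₗ[ZMod p] V} (hx : x ∈ F) (hxA : x ∉ A) :
    Nat.card (fx x) ^ 2 ≤ Nat.card V := by
  obtain ⟨ρ, n, R⟩ := exists_rho E
  obtain ⟨i, hi⟩ := (R.cov x hx).resolve_left hxA
  obtain ⟨j, hj⟩ : ∃ j : Fin 3, j ≠ i := exists_ne i
  have h1 : x⁻¹ * n j ∉ A := by
    intro h
    apply hj
    symm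
    apply R.inj
    have h2 : (n i)⁻¹ * n j = (n i)⁻¹ * x * (x⁻¹ * n j) := by group
    rw [h2]
    exact mul_mem hi h
  have h2 := anti E hx (R.memF j) hxA (R.notA j) h1
  refine card_sq_le (n := n j) ?_
  intro w hw hw2
  rw [mem_fx] at hw hw2
  have h3 : x (n j w) = -(n j (x w)) := by
    have := congrArg (fun g : V ≃ₗ[ZMod p] V => g w) h2
    exact this
  rw [hw2, hw] at h3
  have h4 := two_ne hp h3
  exact (LinearEquiv.map_eq_zero_iff _).1 h4

/-- at most six involutions in `F` outside `A` -/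
theorem count_F [Nontrivial V] (E : ETwo G A F) (hK : KS G A K χ σ) :
    Nat.card {y : G // y * y = 1 ∧ (y : V ≃ₗ[ZMod p] V) ∈ F ∧ (y : V ≃ₗ[ZMod p] V) ∉ A} ≤ 6 := by
  classical
  have := finite_gl (p := p) (V := V)
  obtain ⟨ρ, n, R⟩ := exists_rho E
  let f : G → Fin 3 := fun y => if h : ∃ i, (n i)⁻¹ * (y : V ≃ₗ[ZMod p] V) ∈ A then h.choose else 0
  have hf : ∀ y : G, (y : V ≃ₗ[ZMod p] V) ∈ F → (y : V ≃ₗ[ZMod p] V) ∉ A →
      (n (f y))⁻¹ * (y : V ≃ₗ[ZMod p] V) ∈ A := by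
    intro y hy hyA
    have h := (R.cov y hy).resolve_left hyA
    have h1 : f y = h.choose := dif_pos h
    rw [h1]
    exact h.choose_spec
  have h1 := card_le_mul_of (S := fun y : G => y * y = 1 ∧ (y : V ≃ₗ[ZMod p] V) ∈ F ∧ (y : V ≃ₗ[ZMod p] V) ∉ A) f
    Finset.univ (fun y _ => Finset.mem_univ _) 2 (fun b _ => by
      by_cases hne : ∃ y₁ : G, (y₁ * y₁ = 1 ∧ (y₁ : V ≃ₗ[ZMod p] V) ∈ F ∧ (y₁ : V ≃ₗ[ZMod p] V) ∉ A) ∧ f y₁ = b
      · obtain ⟨y₁, h3, h4⟩ := hne
        refine le_trans (Nat.card_le_card_of_injective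
          (fun y : {y : G // (y * y = 1 ∧ (y : V ≃ₗ[ZMod p] V) ∈ F ∧ (y : V ≃ₗ[ZMod p] V) ∉ A) ∧ f y = b} =>
            (⟨y.1, by rw [pow_two]; exact y.2.1.1, ?_⟩ :
            {y : G // y ^ 2 = 1 ∧ (y₁ : V ≃ₗ[ZMod p] V)⁻¹ * (y : V ≃ₗ[ZMod p] V) ∈ A})) ?_)
          (coset_lin E hK (r := 2) (by norm_num) (y₁ := y₁) (by rw [pow_two]; exact h3.1)
            (sigma_of_mem E hK h3.2.1))
        · have h5 := hf y₁ h3.2.1 h3.2.2
          have h6 := hf y.1 y.2.1.2.1 y.2.1.2.2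
          rw [h4] at h5
          rw [y.2.2] at h6
          have h7 : (y₁ : V ≃ₗ[ZMod p] V)⁻¹ * (y.1 : V ≃ₗ[ZMod p] V) =
            ((n b)⁻¹ * (y₁ : V ≃ₗ[ZMod p] V))⁻¹ * ((n b)⁻¹ * (y.1 : V ≃ₗ[ZMod p] V)) := by group
          rw [h7]
          exact mul_mem (inv_mem h5) h6
        · intro a b h
          exact Subtype.ext (congrArg (fun z : {y : G // y ^ 2 = 1 ∧
            (y₁ : V ≃ₗ[ZMod p] V)⁻¹ * (y : V ≃ₗ[ZMod p] V) ∈ A} => z.1) h)
      · have : IsEmpty {y : G // (y * y = 1 ∧ (y : V ≃ₗ[ZMod p] V) ∈ F ∧ (y : V ≃ₗ[ZMod p] V) ∉ A) ∧ f y = b} :=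
          ⟨fun y => hne ⟨y.1, y.2⟩⟩
        rw [Nat.card_of_isEmpty]
        exact Nat.zero_le _)
  rw [Finset.card_univ, Fintype.card_fin] at h1
  exact h1

/-- there is a vector whose stabiliser in `F` is trivial -/
theorem exists_free [Nontrivial V] (E : ETwo G A F) (hK : KS G A K χ σ) (hp : 5 ≤ p) {B : ℕ}
    (hB : Nat.card V = B ^ 2) (h6 : 6 * (B - 1) < B ^ 2 - 1) : ∃ v : V, v ≠ 0 ∧ ∀ x ∈ F, x v = v → x = 1 := by
  classical
  have := finite_gl (p := p) (V := V)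
  by_contra hcon
  push Not at hcon
  have h1 := cover_le (k := 1) (B := B) (N := 6) (count_F E hK) (fun y hy => by
    have := card_fx_F E hp hy.2.1 hy.2.2
    rw [hB] at this
    exact (Nat.pow_le_pow_iff_left (by norm_num)).1 this) (fun v hv => by
    obtain ⟨x, hx, hxv, hx1⟩ := hcon v hv
    have hxA : x ∉ A := fun h => hv (E.semi x h hx1 v hxv)
    have hxx : x * x = 1 := by
      by_contra hne
      refine hv (E.semi _ (E.sq x hx) hne v ?_)
      change x (x v) = v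
      rw [hxv, hxv]
    have : Nonempty {y : G // (y * y = 1 ∧ (y : V ≃ₗ[ZMod p] V) ∈ F ∧ (y : V ≃ₗ[ZMod p] V) ∉ A) ∧
        (y : V ≃ₗ[ZMod p] V) v = v} := ⟨⟨⟨x, E.FG hx⟩, ⟨Subtype.ext hxx, hx, hxA⟩, hxv⟩⟩
    exact Nat.succ_le_of_lt Nat.card_pos)
  rw [hB] at h1
  omega

/-- Aut of a field of prime order -/
theorem ringEquiv_one {q : ℕ} (hq : q.Prime) (h : Nat.card K = q) (τ : K ≃+* K) : τ = 1 := by
  have : Fact q.Prime := ⟨hq⟩
  have h1 := zmultiples_eq_top_of_prime_card h (one_ne_zero (α := K))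
  ext k
  have h2 : k ∈ AddSubgroup.zmultiples (1 : K) := by rw [h1]; exact AddSubgroup.mem_top k
  obtain ⟨m, hm⟩ := AddSubgroup.mem_zmultiples_iff.1 h2
  rw [← hm]
  change τ (m • (1 : K)) = m • (1 : K)
  rw [map_zsmul, map_one]

theorem char_of [Nontrivial V] : ((p : ℕ) : K) = 0 := by
  obtain ⟨v, hv⟩ := exists_ne (0 : V)
  have h1 : ((p : ℕ) : K) • v = 0 := by
    rw [Nat.cast_smul_eq_nsmul, ← Nat.cast_smul_eq_nsmul (ZMod p), CharP.cast_eq_zero, zero_smul]
  exact (smul_eq_zero.1 h1).resolve_right hv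

/-- elements of `F` are `K`-linear -/
theorem lin_of_mem (E : ETwo G A F) (hK : KS G A K χ σ) {x : V ≃ₗ[ZMod p] V} (hx : x ∈ F) (k : K) (v : V) :
    x (k • v) = k • x v := by
  have h1 := hK.semi ⟨x, E.FG hx⟩ k v
  have h2 : σ ⟨x, E.FG hx⟩ = 1 := sigma_of_mem E hK hx
  rw [h2] at h1
  exact h1

/-- `dim_K V ≥ 2` -/
theorem finrank_ne_one (E : ETwo G A F) (hK : KS G A K χ σ) (hp : 5 ≤ p) : Module.finrank K V ≠ 1 := by
  intro h
  obtain ⟨v, hv, hw⟩ := finrank_eq_one_iff'.1 h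
  obtain ⟨x, hx, y, hy, hxA, hyA, hxy⟩ := exists_pair E
  have h1 := anti E hx hy hxA hyA hxy
  obtain ⟨a, ha⟩ := hw (x v)
  obtain ⟨b, hb⟩ := hw (y v)
  have h2 : x (y v) = -(y (x v)) := congrArg (fun g : V ≃ₗ[ZMod p] V => g v) h1
  have h3 : x (y v) = y (x v) := by
    rw [← ha, ← hb, lin_of_mem E hK hx, lin_of_mem E hK hy, ← ha, ← hb, smul_smul, smul_smul, mul_comm]
  have h4 : y (x v) = 0 := two_ne hp (h3.symm.trans h2)
  exact hv ((LinearEquiv.map_eq_zero_iff _).1 ((LinearEquiv.map_eq_zero_iff _).1 h4))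

end Cfsg.Agent.H450.HT
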